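import Mathlib

/-!
# Products of two regular unipotents: extension lemmas

`RegU L` says that `L - 1` is nilpotent with one dimensional kernel.  For a functional `φ`, and
`v` with `φ v = 1`, an endomorphism `T` of the hyperplane `ker φ` and a vector `y` give the
endomorphism `extK` of the whole space with `v ↦ y`, restricting to `T` on the hyperplane.
-/

namespace Cfsg.Agent.Lib.Linalg.Sourour

open Module LinearMap

variable {K : Type*} [Field K] {V : Type*} [AddCommGroup V] [Module K V]

/-- Regular unipotent endomorphisms. -/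
def RegU (L : End K V) : Prop :=
  IsNilpotent (L - 1) ∧ ∃ u : V, u ≠ 0 ∧ LinearMap.ker (L - 1) = Submodule.span K {u}

/-- Projection on a hyperplane along `y`. -/
noncomputable def projK (φ : Dual K V) (y : V) (hy : φ y = 1) : V →ₗ[K] LinearMap.ker φ :=
  LinearMap.codRestrict (LinearMap.ker φ) (LinearMap.id - φ.smulRight y) (by
    intro x
    simp [hy])

@[simp] theorem projK_coe (φ : Dual K V) (y : V) (hy : φ y = 1) (x : V) :
    ((projK φ y hy x : LinearMap.ker φ) : V) = x - φ x • y := rfl

theorem projK_self (φ : Dual K V) (y : V) (hy : φ y = 1) : projK φ y hy y = 0 := by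
  apply Subtype.ext
  simp [hy]

theorem projK_mem (φ : Dual K V) (y : V) (hy : φ y = 1) (w : LinearMap.ker φ) :
    projK φ y hy (w : V) = w := by
  apply Subtype.ext
  have : φ (w : V) = 0 := w.2
  simp [this]

theorem sum_proj (φ : Dual K V) (y : V) (hy : φ y = 1) (x : V) :
    x = φ x • y + (projK φ y hy x : V) := by
  simp

/-- Extension of an endomorphism of a hyperplane. -/
noncomputable def extK (φ : Dual K V) (v : V) (hv : φ v = 1) (T : End K (LinearMap.ker φ)) (y : V) :
    End K V :=
  φ.smulRight y + (LinearMap.ker φ).subtype ∘ₗ T ∘ₗ projK φ v hv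

theorem extK_apply (φ : Dual K V) (v : V) (hv : φ v = 1) (T : End K (LinearMap.ker φ)) (y x : V) :
    extK φ v hv T y x = φ x • y + (T (projK φ v hv x) : V) := rfl

theorem extK_base (φ : Dual K V) (v : V) (hv : φ v = 1) (T : End K (LinearMap.ker φ)) (y : V) :
    extK φ v hv T y v = y := by
  rw [extK_apply, projK_self, hv]
  simp

theorem extK_mem (φ : Dual K V) (v : V) (hv : φ v = 1) (T : End K (LinearMap.ker φ)) (y : V)
    (w : LinearMap.ker φ) : extK φ v hv T y (w : V) = T w := by
  have : φ (w : V) = 0 := w.2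
  rw [extK_apply, projK_mem, this]
  simp

theorem extK_sub_one_apply (φ : Dual K V) (v : V) (hv : φ v = 1) (T : End K (LinearMap.ker φ))
    (y x : V) : (extK φ v hv T y - 1) x
      = φ x • (y - v) + (((T - 1) (projK φ v hv x) : LinearMap.ker φ) : V) := by
  have h := sum_proj φ v hv x
  simp only [LinearMap.sub_apply, Module.End.one_apply, extK_apply, Submodule.coe_sub, projK_coe]
  module

/-- `extK` takes values in the hyperplane, after subtracting `1`, if `φ y = 1`. -/
theorem extK_sub_one_mem (φ : Dual K V) (v : V) (hv : φ v = 1) (T : End K (LinearMap.ker φ))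
    (y : V) (hy : φ y = 1) (x : V) : φ ((extK φ v hv T y - 1) x) = 0 := by
  rw [extK_sub_one_apply]
  have h : φ (((T - 1) (projK φ v hv x) : LinearMap.ker φ) : V) = 0 :=
    ((T - 1) (projK φ v hv x)).2
  simp [h, hy, hv]

theorem extK_sub_one_pow (φ : Dual K V) (v : V) (hv : φ v = 1) (T : End K (LinearMap.ker φ))
    (y : V) (k : ℕ) (w : LinearMap.ker φ) :
    ((extK φ v hv T y - 1) ^ k) (w : V) = ((((T - 1) ^ k) w : LinearMap.ker φ) : V) := by
  induction k generalizing w with
  | zero => simp
  | succ k ih =>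
    rw [pow_succ, pow_succ, Module.End.mul_apply, Module.End.mul_apply]
    have h : (extK φ v hv T y - 1) (w : V) = (((T - 1) w : LinearMap.ker φ) : V) := by
      simp [extK_mem]
    rw [h, ih]

theorem nil_extK (φ : Dual K V) (v : V) (hv : φ v = 1) (T : End K (LinearMap.ker φ))
    (hT : IsNilpotent (T - 1)) (y : V) (hy : φ y = 1) : IsNilpotent (extK φ v hv T y - 1) := by
  obtain ⟨k, hk⟩ := hT
  refine ⟨k + 1, ?_⟩
  ext x
  rw [pow_succ, Module.End.mul_apply]
  have hz : ((extK φ v hv T y - 1) x) ∈ LinearMap.ker φ := extK_sub_one_mem φ v hv T y hy x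
  have := extK_sub_one_pow φ v hv T y k ⟨_, hz⟩
  simp only at this
  rw [this, hk]
  simp

theorem regU_extK (φ : Dual K V) (v : V) (hv : φ v = 1) (T : End K (LinearMap.ker φ))
    (hT : RegU T) (y : V) (hy : φ y = 1)
    (hny : ∀ w : LinearMap.ker φ, (((T - 1) w : LinearMap.ker φ) : V) ≠ y - v) :
    RegU (extK φ v hv T y) := by
  refine ⟨nil_extK φ v hv T hT.1 y hy, ?_⟩
  obtain ⟨u, hu0, hu⟩ := hT.2
  refine ⟨(u : V), fun h => hu0 (Subtype.ext h), ?_⟩
  apply le_antisymm
  · intro x hx
    rw [LinearMap.mem_ker, extK_sub_one_apply] at hx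
    have hφ : φ x = 0 := by
      by_contra hne
      apply hny ((-(φ x)⁻¹) • projK φ v hv x)
      have h2 : φ x • (y - v) = -(((T - 1) (projK φ v hv x) : LinearMap.ker φ) : V) :=
        eq_neg_of_add_eq_zero_left hx
      have h3 : y - v = (φ x)⁻¹ • (φ x • (y - v)) := by rw [smul_smul, inv_mul_cancel₀ hne, one_smul]
      rw [h3, h2, map_smul]
      simp only [smul_neg, neg_smul]
      rfl
    rw [hφ, zero_smul, zero_add] at hx
    have h4 : (T - 1) (projK φ v hv x) = 0 := Subtype.ext hx
    have h5 : projK φ v hv x ∈ LinearMap.ker (T - 1) := h4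
    rw [hu, Submodule.mem_span_singleton] at h5
    obtain ⟨t, ht⟩ := h5
    rw [Submodule.mem_span_singleton]
    refine ⟨t, ?_⟩
    have h6 := sum_proj φ v hv x
    rw [hφ, zero_smul, zero_add, ← ht] at h6
    rw [h6]
    simp
  · rw [Submodule.span_singleton_le_iff_mem, LinearMap.mem_ker]
    have h1 : u ∈ LinearMap.ker (T - 1) := by rw [hu]; exact Submodule.mem_span_singleton_self u
    have h2 : (T - 1) u = 0 := h1
    have := extK_sub_one_pow φ v hv T y 1 u
    simp only [pow_one] at this
    rw [this, h2]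
    simp

/-- The second kind of extension: `v ↦ v`, `w ↦ T w + s w • v`. -/
noncomputable def extU (φ : Dual K V) (v : V) (hv : φ v = 1) (T : End K (LinearMap.ker φ))
    (s : Dual K (LinearMap.ker φ)) : End K V :=
  extK φ v hv T v + (s ∘ₗ projK φ v hv).smulRight v

theorem extU_apply (φ : Dual K V) (v : V) (hv : φ v = 1) (T : End K (LinearMap.ker φ))
    (s : Dual K (LinearMap.ker φ)) (x : V) :
    extU φ v hv T s x = φ x • v + (T (projK φ v hv x) : V) + s (projK φ v hv x) • v := rfl

theorem extU_base (φ : Dual K V) (v : V) (hv : φ v = 1) (T : End K (LinearMap.ker φ))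
    (s : Dual K (LinearMap.ker φ)) : extU φ v hv T s v = v := by
  rw [extU_apply, projK_self, hv]
  simp

theorem extU_sub_one_apply (φ : Dual K V) (v : V) (hv : φ v = 1) (T : End K (LinearMap.ker φ))
    (s : Dual K (LinearMap.ker φ)) (x : V) : (extU φ v hv T s - 1) x
      = (((T - 1) (projK φ v hv x) : LinearMap.ker φ) : V) + s (projK φ v hv x) • v := by
  simp only [LinearMap.sub_apply, Module.End.one_apply, extU_apply, Submodule.coe_sub, projK_coe]
  module

theorem proj_extU (φ : Dual K V) (v : V) (hv : φ v = 1) (T : End K (LinearMap.ker φ))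
    (s : Dual K (LinearMap.ker φ)) (x : V) :
    projK φ v hv ((extU φ v hv T s - 1) x) = (T - 1) (projK φ v hv x) := by
  rw [extU_sub_one_apply, map_add, map_smul, projK_self, smul_zero, add_zero, projK_mem]

theorem proj_extU_pow (φ : Dual K V) (v : V) (hv : φ v = 1) (T : End K (LinearMap.ker φ))
    (s : Dual K (LinearMap.ker φ)) (k : ℕ) (x : V) :
    projK φ v hv (((extU φ v hv T s - 1) ^ k) x) = ((T - 1) ^ k) (projK φ v hv x) := by
  induction k generalizing x with
  | zero => simp
  | succ k ih =>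
    rw [pow_succ, pow_succ, Module.End.mul_apply, Module.End.mul_apply, ih, proj_extU]

theorem regU_extU (φ : Dual K V) (v : V) (hv : φ v = 1) (T : End K (LinearMap.ker φ))
    (hT : RegU T) (s : Dual K (LinearMap.ker φ))
    (hs : ∃ x, (T - 1) x = 0 ∧ s x ≠ 0) :
    RegU (extU φ v hv T s) ∧ (extU φ v hv T s - 1) v = 0 := by
  have hbase : (extU φ v hv T s - 1) v = 0 := by
    simp [extU_base]
  have hv0 : v ≠ 0 := by
    rintro rfl
    simp at hv
  refine ⟨⟨?_, v, hv0, ?_⟩, hbase⟩
  · obtain ⟨k, hk⟩ := hT.1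
    refine ⟨k + 1, ?_⟩
    ext x
    rw [pow_succ', Module.End.mul_apply]
    have h1 := proj_extU_pow φ v hv T s k x
    rw [hk] at h1
    have h2 := sum_proj φ v hv (((extU φ v hv T s - 1) ^ k) x)
    simp only [LinearMap.zero_apply, ZeroMemClass.coe_zero] at h1
    rw [h1] at h2
    simp only [ZeroMemClass.coe_zero, add_zero] at h2
    rw [h2, map_smul, hbase]
    simp
  · apply le_antisymm
    · intro x hx
      rw [LinearMap.mem_ker, extU_sub_one_apply] at hx
      obtain ⟨u, hu0, hu⟩ := hT.2
      obtain ⟨x₀, hx₀, hsx₀⟩ := hs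
      have hφ := congrArg φ hx
      have h0 : φ (((T - 1) (projK φ v hv x) : LinearMap.ker φ) : V) = 0 :=
        ((T - 1) (projK φ v hv x)).2
      simp only [map_add, map_smul, h0, hv, smul_eq_mul, mul_one, zero_add, map_zero] at hφ
      rw [hφ, zero_smul, add_zero] at hx
      have h4 : (T - 1) (projK φ v hv x) = 0 := Subtype.ext hx
      have h5 : projK φ v hv x ∈ LinearMap.ker (T - 1) := h4
      rw [hu, Submodule.mem_span_singleton] at h5
      obtain ⟨t, ht⟩ := h5
      have h6 : x₀ ∈ LinearMap.ker (T - 1) := hx₀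
      rw [hu, Submodule.mem_span_singleton] at h6
      obtain ⟨t', ht'⟩ := h6
      have hsu : s u ≠ 0 := by
        intro h
        apply hsx₀
        rw [← ht', map_smul, h, smul_zero]
      have ht0 : t = 0 := by
        have : s (t • u) = 0 := by rw [ht, hφ]
        rw [map_smul, smul_eq_mul] at this
        exact (mul_eq_zero.1 this).resolve_right hsu
      rw [ht0, zero_smul] at ht
      have h7 := sum_proj φ v hv x
      rw [← ht] at h7
      rw [h7, Submodule.mem_span_singleton]
      exact ⟨φ x, by simp⟩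
    · rw [Submodule.span_singleton_le_iff_mem, LinearMap.mem_ker]
      exact hbase

/-- The Schur complement of `A`, along `y`, `φ y = 1`. -/
noncomputable def schur (φ : Dual K V) (y : V) (hy : φ y = 1) (A : End K V) :
    End K (LinearMap.ker φ) :=
  projK φ y hy ∘ₗ A ∘ₗ (LinearMap.ker φ).subtype

@[simp] theorem schur_coe (φ : Dual K V) (y : V) (hy : φ y = 1) (A : End K V)
    (w : LinearMap.ker φ) :
    ((schur φ y hy A w : LinearMap.ker φ) : V) = A (w : V) - φ (A (w : V)) • y := rfl

/-- The step of the recursion. -/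
theorem step_factor (A : End K V) (φ : Dual K V) (v : V) (hv : φ v = 1) (hAv : φ (A v) = 1)
    (L₁ U₁ : End K (LinearMap.ker φ)) (hL₁ : RegU L₁) (hU₁ : RegU U₁)
    (hfac : schur φ (A v) hAv A = L₁ * U₁)
    (hc : ∀ w : LinearMap.ker φ, (((L₁ - 1) w : LinearMap.ker φ) : V) ≠ A v - v)
    (hr : ∃ x : LinearMap.ker φ, (U₁ - 1) x = 0 ∧ φ (A (x : V)) ≠ 0) :
    ∃ L U : End K V, RegU L ∧ RegU U ∧ A = L * U ∧ (∀ x, φ ((L - 1) x) = 0) ∧ (U - 1) v = 0 := by
  let s : Dual K (LinearMap.ker φ) := φ ∘ₗ A ∘ₗ (LinearMap.ker φ).subtype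
  have hU := regU_extU φ v hv U₁ hU₁ s hr
  refine ⟨extK φ v hv L₁ (A v), extU φ v hv U₁ s, regU_extK φ v hv L₁ hL₁ (A v) hAv hc, hU.1, ?_,
    extK_sub_one_mem φ v hv L₁ (A v) hAv, hU.2⟩
  ext x
  rw [Module.End.mul_apply, extU_apply]
  rw [map_add, map_add, map_smul, map_smul, extK_base, extK_mem]
  have h1 : ((L₁ (U₁ (projK φ v hv x)) : LinearMap.ker φ) : V)
      = ((schur φ (A v) hAv A (projK φ v hv x) : LinearMap.ker φ) : V) := by
    rw [hfac]; rfl
  rw [h1, schur_coe]
  have hsx : s (projK φ v hv x) = φ (A ((projK φ v hv x : LinearMap.ker φ) : V)) := rfl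
  rw [hsx]
  have h2 := sum_proj φ v hv x
  have h3 : A x = φ x • A v + A ((projK φ v hv x : LinearMap.ker φ) : V) := by
    conv_lhs => rw [h2]
    rw [map_add, map_smul]
  rw [h3]
  module

end Cfsg.Agent.Lib.Linalg.Sourour
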