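import Cfsg.Agent.Lib.Linalg.Sourour.Main
import Cfsg.Agent.Lib.Linalg.RegularClasses

/-!
# From endomorphisms to matrices: regular unipotents are conjugate to the Jordan block
-/

namespace Cfsg.Agent.Lib.Linalg.Sourour

open Module LinearMap Matrix
open scoped MatrixGroups
open Cfsg.Agent.Lib.Linalg.RegularClasses

universe u

variable {K : Type u} [Field K] {m : ℕ}

theorem matrix_of_regU (L : End K (Fin (m + 1) → K)) (hL : RegU L) :
    let N : Matrix (Fin (m + 1)) (Fin (m + 1)) K := Matrix.toLinAlgEquiv' (R := K).symm (L - 1)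
    N ^ (m + 1) = 0 ∧ N.rank = m := by
  intro N
  constructor
  · have h1 : IsNilpotent N := hL.1.map (Matrix.toLinAlgEquiv' (R := K) (n := Fin (m + 1))).symm
    have h2 := Cfsg.Agent.Lib.Linalg.Unipotent.pow_card_eq_zero_of_isNilpotent h1
    simpa using h2
  · have h1 : N.mulVecLin = L - 1 := by
      apply LinearMap.ext
      intro x
      have h2 : Matrix.toLinAlgEquiv' (R := K) N = L - 1 := by simp [N]
      have h3 := congrArg (fun f : End K (Fin (m + 1) → K) => f x) h2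
      simpa [Matrix.toLinAlgEquiv'_apply] using h3
    rw [Matrix.rank, h1]
    have h4 := LinearMap.finrank_range_add_finrank_ker (L - 1)
    obtain ⟨u, hu0, hu⟩ := hL.2
    rw [hu, finrank_span_singleton hu0, Module.finrank_fin_fun] at h4
    omega

theorem jordan_conj_data (J : GL (Fin (m + 1)) K)
    (hJ : ∀ i j : Fin (m + 1), (J : Matrix (Fin (m + 1)) (Fin (m + 1)) K) i j
      = if i = j then 1 else if j.val = i.val + 1 then 1 else 0) :
    ((J : Matrix (Fin (m + 1)) (Fin (m + 1)) K) - 1) ^ (m + 1) = 0 ∧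
      ((J : Matrix (Fin (m + 1)) (Fin (m + 1)) K) - 1).rank = m := by
  have h1 : (J : Matrix (Fin (m + 1)) (Fin (m + 1)) K) - 1
      = Cfsg.Agent.Lib.Linalg.Unipotent.jordanNil K (m + 1) := by
    ext i j
    rw [Matrix.sub_apply, hJ, Cfsg.Agent.Lib.Linalg.Unipotent.jordanNil_apply, Matrix.one_apply]
    by_cases hij : i = j
    · subst hij
      simp
    · have : ((i : ℕ) + 1 = j) ↔ (j.val = i.val + 1) := eq_comm
      simp [hij, this]
  rw [h1]
  refine ⟨Cfsg.Agent.Lib.Linalg.Unipotent.jordanNil_pow_card K (m + 1), ?_⟩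
  have h2 := shift_rank K m
  rw [shift_eq_transpose, Matrix.rank_transpose] at h2
  exact h2

theorem conj_of_data (N₁ N₂ : Matrix (Fin (m + 1)) (Fin (m + 1)) K)
    (h₁ : N₁ ^ (m + 1) = 0) (r₁ : N₁.rank = m) (h₂ : N₂ ^ (m + 1) = 0) (r₂ : N₂.rank = m)
    (J : GL (Fin (m + 1)) K) (hJ : (J : Matrix (Fin (m + 1)) (Fin (m + 1)) K) = N₂ + 1) :
    ∃ x : GL (Fin (m + 1)) K,
      N₁ + 1 = ((x * J * x⁻¹ : GL (Fin (m + 1)) K) : Matrix (Fin (m + 1)) (Fin (m + 1)) K) := by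
  obtain ⟨P, hP, hP'⟩ := exists_conj_shift h₁ r₁
  obtain ⟨Q, hQ, hQ'⟩ := exists_conj_shift h₂ r₂
  refine ⟨hP.unit * hQ.unit⁻¹, ?_⟩
  set x : GL (Fin (m + 1)) K := hP.unit * hQ.unit⁻¹ with hxdef
  have hx : (x : Matrix (Fin (m + 1)) (Fin (m + 1)) K)
      = P * ((hQ.unit⁻¹ : GL (Fin (m + 1)) K) : Matrix (Fin (m + 1)) (Fin (m + 1)) K) := by
    rw [hxdef, Units.val_mul, hP.unit_spec]
  clear_value x
  rw [Units.val_mul (x * J), Units.eq_mul_inv_iff_mul_eq, Units.val_mul, hJ, hx]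
  set S := shift K m
  have hQQ' : Q * ((hQ.unit⁻¹ : GL (Fin (m + 1)) K) : Matrix (Fin (m + 1)) (Fin (m + 1)) K) = 1 := by
    have := Units.mul_inv hQ.unit
    rwa [hQ.unit_spec] at this
  have hQ'Q : ((hQ.unit⁻¹ : GL (Fin (m + 1)) K) : Matrix (Fin (m + 1)) (Fin (m + 1)) K) * Q = 1 := by
    have := Units.inv_mul hQ.unit
    rwa [hQ.unit_spec] at this
  set Q' := ((hQ.unit⁻¹ : GL (Fin (m + 1)) K) : Matrix (Fin (m + 1)) (Fin (m + 1)) K)
  have h3 : Q' * N₂ = S * Q' := by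
    calc Q' * N₂ = Q' * N₂ * (Q * Q') := by rw [hQQ', mul_one]
      _ = Q' * (N₂ * Q) * Q' := by simp only [mul_assoc]
      _ = Q' * (Q * S) * Q' := by rw [hQ']
      _ = (Q' * Q) * S * Q' := by simp only [mul_assoc]
      _ = S * Q' := by rw [hQ'Q, one_mul]
  calc (N₁ + 1) * (P * Q') = (N₁ * P) * Q' + P * Q' := by noncomm_ring
    _ = (P * S) * Q' + P * Q' := by rw [hP']
    _ = P * (S * Q') + P * Q' := by rw [mul_assoc]
    _ = P * (Q' * N₂) + P * Q' := by rw [h3]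
    _ = P * Q' * (N₂ + 1) := by noncomm_ring

theorem exists_conj_of_regU (J : GL (Fin (m + 1)) K)
    (hJ : ∀ i j : Fin (m + 1), (J : Matrix (Fin (m + 1)) (Fin (m + 1)) K) i j
      = if i = j then 1 else if j.val = i.val + 1 then 1 else 0)
    (L : End K (Fin (m + 1) → K)) (hL : RegU L) :
    ∃ x : GL (Fin (m + 1)) K, Matrix.toLinAlgEquiv' (R := K).symm L
      = ((x * J * x⁻¹ : GL (Fin (m + 1)) K) : Matrix (Fin (m + 1)) (Fin (m + 1)) K) := by
  obtain ⟨h1, h2⟩ := matrix_of_regU L hL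
  obtain ⟨h3, h4⟩ := jordan_conj_data J hJ
  obtain ⟨x, hx⟩ := conj_of_data _ _ h1 h2 h3 h4 J (by simp)
  refine ⟨x, ?_⟩
  rw [← hx]
  simp

end Cfsg.Agent.Lib.Linalg.Sourour
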