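import Cfsg.Agent.Lib.Linalg.Sourour.Quad

/-!
# Choice of the hyperplane and the vector in the recursion
-/

namespace Cfsg.Agent.Lib.Linalg.Sourour

open Module LinearMap

variable {K : Type*} [Field K] {V : Type*} [AddCommGroup V] [Module K V]

theorem exists_base_functional (hK : 4 ≤ Cardinal.mk K) (A : End K V) (v : V)
    (hne : ∀ a : K, A v ≠ a • v) (hv0 : v ≠ 0) (c b : V)
    (hc : c ∉ Submodule.span K {A v - v}) (hb : b ∉ Submodule.span K {A v - v}) :
    ∃ φ : Dual K V, φ v = 1 ∧ φ (A v) = 1 ∧ φ c ≠ 0 ∧ φ b ≠ 0 := by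
  have hv : v ∉ Submodule.span K {A v - v} := by
    intro h
    obtain ⟨t, ht⟩ := Submodule.mem_span_singleton.1 h
    have ht0 : t ≠ 0 := by
      rintro rfl
      rw [zero_smul] at ht
      exact hv0 ht.symm
    apply hne ((1 + t) / t)
    have e : t • A v = (1 + t) • v := by
      rw [add_smul, one_smul]
      linear_combination (norm := module) ht
    have e2 : A v = t⁻¹ • (t • A v) := by rw [smul_smul, inv_mul_cancel₀ ht0, one_smul]
    rw [e2, e, smul_smul, div_eq_inv_mul]
  obtain ⟨f, hf1, hf2, hf3, hf4⟩ := exists_functional3 hK _ hv hc hb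
  refine ⟨f, hf1, ?_, hf3, hf4⟩
  have := hf2 (A v - v) (Submodule.mem_span_singleton_self _)
  rw [map_sub, hf1, sub_eq_zero] at this
  exact this

section Cubic

theorem schur_ne_scalar_of_cubic (A : End K V) (v : V) (φ : Dual K V) (hv : φ v = 1)
    (hAv : φ (A v) = 1) (hcub : ∀ τ δ : K, A (A v) ≠ τ • A v - δ • v) (a : K) :
    schur φ (A v) hAv A ≠ a • 1 := by
  intro h
  have hc₁ : A v - v ∈ LinearMap.ker φ := by
    simp [hv, hAv]
  have h1 := congrArg (fun T : End K (LinearMap.ker φ) => ((T ⟨A v - v, hc₁⟩ : LinearMap.ker φ) : V)) h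
  simp only [schur_coe, LinearMap.smul_apply, Module.End.one_apply, Submodule.coe_smul] at h1
  apply hcub (φ (A (A v)) + a) a
  simp only [map_sub, hAv] at h1
  linear_combination (norm := module) h1

end Cubic

section Quadratic

variable (A : End K V) (v : V) (τ δ : K)

theorem schur_base (hq : ∀ x, A (A x) = τ • A x - δ • x) (φ : Dual K V) (hv : φ v = 1)
    (hAv : φ (A v) = 1) (hc₁ : A v - v ∈ LinearMap.ker φ) :
    schur φ (A v) hAv A ⟨A v - v, hc₁⟩ = δ • (⟨A v - v, hc₁⟩ : LinearMap.ker φ) := by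
  apply Subtype.ext
  simp only [schur_coe, map_sub, hq, map_smul, hv, hAv, smul_eq_mul, mul_one, Submodule.coe_smul]
  module

/-- At most one functional has a scalar Schur complement. -/
theorem scalar_functional_unique (hq : ∀ x, A (A x) = τ • A x - δ • x) (hδ : δ ≠ 0)
    (hne : ∀ a : K, A v ≠ a • v) (hv0 : v ≠ 0)
    (φ φ' : Dual K V) (hv : φ v = 1) (hv' : φ' v = 1) (hAv : φ (A v) = 1) (hAv' : φ' (A v) = 1)
    (a a' : K) (h : ∀ x, φ x = 0 → A x - φ (A x) • A v = a • x)
    (h' : ∀ x, φ' x = 0 → A x - φ' (A x) • A v = a' • x) : φ = φ' := by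
  have hc₁0 : A v - v ≠ 0 := by
    intro h0
    apply hne 1
    rw [one_smul]
    exact sub_eq_zero.1 h0
  have key : ∀ (ψ : Dual K V) (b : K), ψ v = 1 → ψ (A v) = 1 →
      (∀ x, ψ x = 0 → A x - ψ (A x) • A v = b • x) →
      ∀ x, ψ x = 0 → ∃ t : K, A x - δ • x = t • A v := by
    intro ψ b hψv hψAv hb x hx
    have h1 := hb (A v - v) (by simp [hψv, hψAv])
    simp only [map_sub, hq, map_smul, hψv, hψAv, smul_eq_mul, mul_one] at h1
    have h2 : (δ - b) • (A v - v) = 0 := by
      linear_combination (norm := module) h1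
    have h3 : b = δ := by
      have := (smul_eq_zero.1 h2).resolve_right hc₁0
      linear_combination -this
    refine ⟨ψ (A x), ?_⟩
    have h4 := hb x hx
    rw [h3] at h4
    linear_combination (norm := module) h4
  have hker := key φ a hv hAv h
  have hker' := key φ' a' hv' hAv' h'
  let T : Submodule K V := (Submodule.span K {A v}).comap (A - δ • 1)
  have hT : ∀ x, x ∈ T ↔ ∃ t : K, A x - δ • x = t • A v := by
    intro x
    simp only [T, Submodule.mem_comap, Submodule.mem_span_singleton, LinearMap.sub_apply,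
      LinearMap.smul_apply, Module.End.one_apply]
    constructor
    · rintro ⟨t, ht⟩
      exact ⟨t, ht.symm⟩
    · rintro ⟨t, ht⟩
      exact ⟨t, ht.symm⟩
  have hvT : v ∉ T := by
    rw [hT]
    rintro ⟨t, ht⟩
    have ht1 : t ≠ 1 := by
      rintro rfl
      rw [one_smul] at ht
      have : δ • v = 0 := by linear_combination (norm := module) -ht
      rcases smul_eq_zero.1 this with h | h
      · exact hδ h
      · exact hv0 h
    apply hne (δ / (1 - t))
    have hne' : (1 : K) - t ≠ 0 := sub_ne_zero.2 (Ne.symm ht1)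
    have e : (1 - t) • A v = δ • v := by linear_combination (norm := module) ht
    have e2 : A v = (1 - t)⁻¹ • ((1 - t) • A v) := by rw [smul_smul, inv_mul_cancel₀ hne', one_smul]
    rw [e2, e, smul_smul, div_eq_inv_mul]
  ext x
  have h1 : x - φ x • v ∈ T := by
    rw [hT]
    apply hker
    simp [hv]
  have h2 : x - φ' x • v ∈ T := by
    rw [hT]
    apply hker'
    simp [hv']
  have h3 : (φ' x - φ x) • v ∈ T := by
    have := T.sub_mem h1 h2
    have e : x - φ x • v - (x - φ' x • v) = (φ' x - φ x) • v := by module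
    rwa [e] at this
  by_contra hne2
  have hne3 : φ' x - φ x ≠ 0 := sub_ne_zero.2 (Ne.symm hne2)
  exact hvT ((Submodule.smul_mem_iff T hne3).1 h3)

theorem schur_not_unipotent (hq : ∀ x, A (A x) = τ • A x - δ • x)
    (hne : ∀ a : K, A v ≠ a • v)
    (hu : ¬ IsNilpotent (A - 1)) (y₀ : V) (hy₀ : y₀ ∉ Submodule.span K {v, A v})
    (φ : Dual K V) (hv : φ v = 1) (hAv : φ (A v) = 1) :
    ¬ IsNilpotent (schur φ (A v) hAv A - 1) := by
  rintro ⟨k, hk⟩
  have hc₁ : A v - v ∈ LinearMap.ker φ := by
    simp [hv, hAv]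
  have hc₁0 : (⟨A v - v, hc₁⟩ : LinearMap.ker φ) ≠ 0 := by
    intro h0
    have h1 : A v - v = 0 := congrArg Subtype.val h0
    apply hne 1
    rw [one_smul]
    exact sub_eq_zero.1 h1
  have hS := schur_base A v τ δ hq φ hv hAv hc₁
  have hpow : ∀ j : ℕ, ((schur φ (A v) hAv A - 1) ^ j) ⟨A v - v, hc₁⟩
      = (δ - 1) ^ j • (⟨A v - v, hc₁⟩ : LinearMap.ker φ) := by
    intro j
    induction j with
    | zero => simp
    | succ j ih =>
      have e : δ • (⟨A v - v, hc₁⟩ : LinearMap.ker φ) - ⟨A v - v, hc₁⟩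
          = (δ - 1) • (⟨A v - v, hc₁⟩ : LinearMap.ker φ) := by
        rw [sub_smul, one_smul]
      rw [pow_succ, Module.End.mul_apply, LinearMap.sub_apply, hS, Module.End.one_apply, e,
        map_smul, ih, smul_smul, pow_succ, mul_comm]
  have hδ : δ = 1 := by
    have h1 := hpow k
    rw [hk] at h1
    have h2 : (δ - 1) ^ k = 0 := by
      have : (δ - 1) ^ k • (⟨A v - v, hc₁⟩ : LinearMap.ker φ) = 0 := by
        rw [← h1]; rfl
      exact (smul_eq_zero.1 this).resolve_right hc₁0
    have h3 : δ - 1 = 0 := by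
      by_contra hne'
      exact pow_ne_zero k hne' h2
    linear_combination h3
  have hτ : τ - 2 ≠ 0 := by
    intro hτ
    apply hu
    refine ⟨2, ?_⟩
    ext x
    have hτ2 : τ = 2 := by linear_combination hτ
    rw [pow_two, Module.End.mul_apply]
    simp only [LinearMap.sub_apply, Module.End.one_apply, map_sub, hq, hτ2, hδ, LinearMap.zero_apply]
    module
  let W₀ : Submodule K V := Submodule.span K {v, A v}
  have hW₀ : ∀ w ∈ W₀, A w ∈ W₀ := by
    intro w hw
    obtain ⟨p, s, rfl⟩ := Submodule.mem_span_pair.1 hw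
    apply Submodule.mem_span_pair.2
    refine ⟨-(s * δ), p + s * τ, ?_⟩
    simp only [map_add, map_smul, hq]
    module
  have hAvW : A v ∈ W₀ := Submodule.subset_span (by simp)
  have hstep : ∀ z : LinearMap.ker φ, (z : V) ∉ W₀ →
      (((schur φ (A v) hAv A - 1) z : LinearMap.ker φ) : V) ∉ W₀ := by
    intro z hz hmem
    have h1 : ((schur φ (A v) hAv A - 1) z : LinearMap.ker φ).val
        = A (z : V) - φ (A (z : V)) • A v - (z : V) := rfl
    have h2 : A (z : V) - (z : V) ∈ W₀ := by
      rw [h1] at hmem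
      have := W₀.add_mem hmem (W₀.smul_mem (φ (A (z : V))) hAvW)
      have e : A (z : V) - φ (A (z : V)) • A v - (z : V) + φ (A (z : V)) • A v = A (z : V) - (z : V) := by
        abel
      rwa [e] at this
    have h3 : A (A (z : V) - (z : V)) ∈ W₀ := hW₀ _ h2
    have h4 : (τ - 2) • A (z : V) ∈ W₀ := by
      have := W₀.sub_mem h3 h2
      have e : A (A (z : V) - (z : V)) - (A (z : V) - (z : V)) = (τ - 2) • A (z : V) := by
        rw [map_sub, hq, hδ]
        module
      rwa [e] at this
    have h5 : A (z : V) ∈ W₀ := (Submodule.smul_mem_iff W₀ hτ).1 h4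
    apply hz
    have := W₀.sub_mem h5 h2
    simpa using this
  have hyW : (projK φ v hv y₀ : V) ∉ W₀ := by
    intro h
    apply hy₀
    have hvW : v ∈ W₀ := Submodule.subset_span (by simp)
    have := W₀.add_mem h (W₀.smul_mem (φ y₀) hvW)
    simpa using this
  have hall : ∀ j : ℕ, ((((schur φ (A v) hAv A - 1) ^ j) (projK φ v hv y₀) : LinearMap.ker φ) : V) ∉ W₀ := by
    intro j
    induction j with
    | zero => simpa using hyW
    | succ j ih =>
      rw [pow_succ', Module.End.mul_apply]
      exact hstep _ ih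
  apply hall k
  rw [hk]
  simp

end Quadratic

variable [FiniteDimensional K V]

theorem det_ne_zero_inj (A : End K V) (hdet : LinearMap.det A = 1) :
    Function.Injective A := by
  have h : IsUnit A := (LinearMap.isUnit_iff_isUnit_det A).2 (by rw [hdet]; exact isUnit_one)
  exact ((Module.End.isUnit_iff A).1 h).1

theorem choice (hK : 4 ≤ Cardinal.mk K) (hn : 2 ≤ finrank K V) (A : End K V)
    (hdet : LinearMap.det A = 1) (hs : ∀ a : K, A ≠ a • 1) (hu : ¬ IsNilpotent (A - 1))
    (c : V) (hc : c ≠ 0) (r : Dual K V) (hr : r ≠ 0) :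
    ∃ (v : V) (φ : Dual K V) (hv : φ v = 1) (hAv : φ (A v) = 1),
      A v ≠ v ∧ (∃ x, φ (A x) ≠ φ x) ∧ φ c ≠ 0 ∧ r v ≠ 0 ∧
      (3 ≤ finrank K V → (∀ a : K, schur φ (A v) hAv A ≠ a • 1) ∧
        ¬ IsNilpotent (schur φ (A v) hAv A - 1)) := by
  let H : Submodule K V := LinearMap.ker r
  let Y : Submodule K V := (Submodule.span K {c}).comap (A - 1)
  have hH : H ≠ ⊤ := by
    intro h
    apply hr
    exact LinearMap.ker_eq_top.1 h
  have hY : Y ≠ ⊤ := by
    intro h
    apply hu
    apply nil_of_rank_one A hdet c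
    intro x
    have : x ∈ Y := by rw [h]; trivial
    exact this
  have hrv : ∀ v, InD H Y v → r v ≠ 0 := fun v hv h => hv.1 h
  -- for `v` outside `Y`, `c ∉ ⟨A v - v⟩`
  have hcv : ∀ v, InD H Y v → c ∉ Submodule.span K {A v - v} := by
    intro v hv hmem
    obtain ⟨t, ht⟩ := Submodule.mem_span_singleton.1 hmem
    have ht0 : t ≠ 0 := by
      rintro rfl
      rw [zero_smul] at ht
      exact hc ht.symm
    apply hv.2
    change (A - 1) v ∈ Submodule.span K {c}
    rw [Submodule.mem_span_singleton]
    refine ⟨t⁻¹, ?_⟩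
    rw [← ht, smul_smul, inv_mul_cancel₀ ht0, one_smul]
    simp
  -- some `x₀`
  have hx₀ : ∀ v, ∃ x₀, (A - 1) x₀ ∉ Submodule.span K {A v - v} := by
    intro v
    by_contra hcon
    push Not at hcon
    exact hu (nil_of_rank_one A hdet _ hcon)
  have hneφ : ∀ (φ : Dual K V) (x : V), φ ((A - 1) x) ≠ 0 → φ (A x) ≠ φ x := by
    intro φ x h h'
    apply h
    simp [h']
  -- finrank of hyperplanes, cast
  have hfin : ∀ φ : Dual K V, φ ≠ 0 →
      ((finrank K (LinearMap.ker φ) : ℕ) : K) = (finrank K V : K) - 1 := by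
    intro φ hφ
    have := Module.Dual.finrank_ker_add_one_of_ne_zero hφ
    rw [← this]
    push_cast
    ring
  by_cases h3 : 3 ≤ finrank K V
  · by_cases hcub : ∃ v, InD H Y v ∧ ∀ τ δ : K, A (A v) ≠ τ • A v - δ • v
    · -- the cubic case
      obtain ⟨v, hvD, hcub⟩ := hcub
      have hne : ∀ a : K, A v ≠ a • v := by
        intro a h
        apply hcub a 0
        rw [h, map_smul, h]
        simp
      have hv0 := hvD.ne_zero
      have hsep : A (A v) ∉ Submodule.span K {v, A v} := by
        intro h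
        obtain ⟨p, s, hps⟩ := Submodule.mem_span_pair.1 h
        apply hcub s (-p)
        rw [← hps]
        module
      obtain ⟨d, hd1, hd2⟩ := exists_sep _ hsep
      have hdv : d v = 0 := hd2 v (Submodule.subset_span (by simp))
      have hdAv : d (A v) = 0 := hd2 (A v) (Submodule.subset_span (by simp))
      obtain ⟨φ₀, h01, h02, h03, -⟩ := exists_base_functional hK A v hne hv0 c c (hcv v hvD) (hcv v hvD)
      obtain ⟨t, ht1, ht2, ht3⟩ := exists_avoid3 hK
        {t : K | (φ₀ (A (A v)) - 1) + t * d (A (A v)) = 0}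
        {t : K | (φ₀ (A (A v)) - (LinearMap.trace K V A - ((finrank K V : K) - 1))) +
          t * d (A (A v)) = 0}
        {t : K | φ₀ c + t * d c = 0}
        (affine_subsingleton _ _ (Or.inr hd1)) (affine_subsingleton _ _ (Or.inr hd1))
        (affine_subsingleton _ _ (Or.inl h03))
      simp only [Set.mem_ofPred_eq] at ht1 ht2 ht3
      let φ : Dual K V := φ₀ + t • d
      have hv : φ v = 1 := by simp [φ, h01, hdv]
      have hAv : φ (A v) = 1 := by simp [φ, h02, hdAv]
      have hφ2 : φ (A (A v)) = φ₀ (A (A v)) + t * d (A (A v)) := by simp [φ]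
      have hφc : φ c ≠ 0 := by simpa [φ] using ht3
      have hφ0 : φ ≠ 0 := by
        intro h
        rw [h] at hv
        simp at hv
      refine ⟨v, φ, hv, hAv, ?_, ⟨A v, ?_⟩, hφc, hrv v hvD, fun _ => ⟨?_, ?_⟩⟩
      · intro h
        apply hne 1
        rw [h, one_smul]
      · rw [hφ2, hAv]
        intro h
        apply ht1
        linear_combination h
      · exact schur_ne_scalar_of_cubic A v φ hv hAv hcub
      · intro hnil
        have h1 := trace_of_unipotent _ hnil
        rw [trace_schur, hfin φ hφ0, hφ2] at h1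
        apply ht2
        linear_combination -h1
    · -- the quadratic case
      push Not at hcub
      obtain ⟨τ, δ, hq⟩ := quad_of_local hK hH hY A hs hcub
      obtain ⟨v, hvD, hne⟩ := exists_noneigen hK hH hY A hs
      have hv0 := hvD.ne_zero
      have hδ : δ ≠ 0 := by
        rintro rfl
        apply hs τ
        ext x
        apply det_ne_zero_inj A hdet
        rw [hq]
        simp
      -- a vector outside the span of `v, A v`
      have hy₀ : ∃ y₀, y₀ ∉ Submodule.span K {v, A v} := by
        classical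
        apply exists_not_mem_one
        intro h
        have h1 : finrank K (Submodule.span K ({v, A v} : Set V)) ≤ 2 := by
          have := finrank_span_finset_le_card (R := K) ({v, A v} : Finset V)
          have h2 : (({v, A v} : Finset V) : Set V) = {v, A v} := by simp
          rw [h2] at this
          exact this.trans (Finset.card_le_two)
        rw [h, finrank_top] at h1
        omega
      obtain ⟨y₀, hy₀⟩ := hy₀
      obtain ⟨d, hd1, hd2⟩ := exists_sep _ hy₀
      have hdv : d v = 0 := hd2 v (Submodule.subset_span (by simp))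
      have hdAv : d (A v) = 0 := hd2 (A v) (Submodule.subset_span (by simp))
      have hd0 : d ≠ 0 := by
        rintro rfl
        simp at hd1
      obtain ⟨x₀, hx₀⟩ := hx₀ v
      obtain ⟨φ₀, h01, h02, h03, h04⟩ :=
        exists_base_functional hK A v hne hv0 c _ (hcv v hvD) hx₀
      have hB3 : {t : K | ∃ a : K, ∀ x, (φ₀ + t • d) x = 0 →
          A x - (φ₀ + t • d) (A x) • A v = a • x}.Subsingleton := by
        intro t ⟨a, ha⟩ t' ⟨a', ha'⟩
        have hf := scalar_functional_unique A v τ δ hq hδ hne hv0 (φ₀ + t • d) (φ₀ + t' • d)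
          (by simp [h01, hdv]) (by simp [h01, hdv]) (by simp [h02, hdAv]) (by simp [h02, hdAv])
          a a' ha ha'
        have h1 := congrArg (fun f : Dual K V => f y₀) hf
        simp only [LinearMap.add_apply, LinearMap.smul_apply, smul_eq_mul, add_right_inj] at h1
        exact mul_right_cancel₀ hd1 h1
      obtain ⟨t, ht1, ht2, ht3⟩ := exists_avoid3 hK
        {t : K | φ₀ ((A - 1) x₀) + t * d ((A - 1) x₀) = 0}
        {t : K | φ₀ c + t * d c = 0}
        _
        (affine_subsingleton _ _ (Or.inl h04))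
        (affine_subsingleton _ _ (Or.inl h03)) hB3
      simp only [Set.mem_ofPred_eq] at ht1 ht2
      let φ : Dual K V := φ₀ + t • d
      have hv : φ v = 1 := by simp [φ, h01, hdv]
      have hAv : φ (A v) = 1 := by simp [φ, h02, hdAv]
      refine ⟨v, φ, hv, hAv, ?_, ⟨x₀, ?_⟩, ?_, hrv v hvD, fun _ => ⟨?_, ?_⟩⟩
      · intro h
        apply hne 1
        rw [h, one_smul]
      · apply hneφ
        simpa [φ] using ht1
      · simpa [φ] using ht2
      · intro a h
        apply ht3
        refine ⟨a, fun x hx => ?_⟩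
        have hxk : x ∈ LinearMap.ker φ := hx
        have h1 := congrArg (fun T : End K (LinearMap.ker φ) =>
          ((T ⟨x, hxk⟩ : LinearMap.ker φ) : V)) h
        simpa only [schur_coe, LinearMap.smul_apply, Module.End.one_apply, Submodule.coe_smul] using h1
      · exact schur_not_unipotent A v τ δ hq hne hu y₀ hy₀ φ hv hAv
  · -- dimension two
    obtain ⟨v, hvD, hne⟩ := exists_noneigen hK hH hY A hs
    obtain ⟨x₀, hx₀⟩ := hx₀ v
    obtain ⟨φ, h01, h02, h03, h04⟩ :=
      exists_base_functional hK A v hne hvD.ne_zero c _ (hcv v hvD) hx₀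
    refine ⟨v, φ, h01, h02, ?_, ⟨x₀, hneφ φ x₀ h04⟩, h03, hrv v hvD, fun h => absurd h h3⟩
    intro h
    apply hne 1
    rw [h, one_smul]

end Cfsg.Agent.Lib.Linalg.Sourour
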