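import Cfsg.Agent.Lib.Linalg.Sourour.Basic

/-!
# Determinant and trace of the Schur complement; rank one maps; small avoidance lemmas
-/

namespace Cfsg.Agent.Lib.Linalg.Sourour

open Module LinearMap

variable {K : Type*} [Field K] {V : Type*} [AddCommGroup V] [Module K V]

section Avoid

theorem exists_avoid3 (hK : 4 ≤ Cardinal.mk K) (B₁ B₂ B₃ : Set K) (h₁ : B₁.Subsingleton)
    (h₂ : B₂.Subsingleton) (h₃ : B₃.Subsingleton) : ∃ t, t ∉ B₁ ∧ t ∉ B₂ ∧ t ∉ B₃ := by
  by_contra hcon
  push Not at hcon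
  have hU : (Set.univ : Set K) ⊆ (B₁ ∪ B₂) ∪ B₃ := by
    intro t _
    by_cases h1 : t ∈ B₁
    · exact Or.inl (Or.inl h1)
    by_cases h2 : t ∈ B₂
    · exact Or.inl (Or.inr h2)
    · exact Or.inr (hcon t h1 h2)
  have hB : ∀ B : Set K, B.Subsingleton → Cardinal.mk B ≤ 1 := fun B hB =>
    Cardinal.le_one_iff_subsingleton.2 hB.coe_sort
  have h4 : Cardinal.mk K ≤ 3 := by
    rw [← Cardinal.mk_univ]
    calc Cardinal.mk (Set.univ : Set K) ≤ Cardinal.mk (((B₁ ∪ B₂) ∪ B₃ : Set K)) :=
          Cardinal.mk_le_mk_of_subset hU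
      _ ≤ Cardinal.mk ((B₁ ∪ B₂ : Set K)) + Cardinal.mk B₃ := Cardinal.mk_union_le _ _
      _ ≤ (Cardinal.mk B₁ + Cardinal.mk B₂) + Cardinal.mk B₃ :=
          add_le_add (Cardinal.mk_union_le _ _) le_rfl
      _ ≤ (1 + 1) + 1 := add_le_add (add_le_add (hB _ h₁) (hB _ h₂)) (hB _ h₃)
      _ = 3 := by norm_num
  have h5 := hK.trans h4
  norm_cast at h5

theorem affine_subsingleton (α β : K) (h : α ≠ 0 ∨ β ≠ 0) :
    {t : K | α + t * β = 0}.Subsingleton := by
  intro t ht t' ht'
  simp only [Set.mem_ofPred_eq] at ht ht'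
  have h1 : (t - t') * β = 0 := by linear_combination ht - ht'
  rcases mul_eq_zero.1 h1 with h2 | h2
  · exact sub_eq_zero.1 h2
  · rw [h2, mul_zero, add_zero] at ht
    rcases h with h | h
    · exact absurd ht h
    · exact absurd h2 h

/-- For `x ∉ P`, at most one point of the line `w + t x` lies in `P`. -/
theorem line_subsingleton (P : Submodule K V) {x : V} (hx : x ∉ P) (w : V) :
    {t : K | w + t • x ∈ P}.Subsingleton := by
  intro t ht t' ht'
  simp only [Set.mem_ofPred_eq] at ht ht'
  by_contra hne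
  have hne' : t - t' ≠ 0 := sub_ne_zero.2 hne
  apply hx
  have h1 : (t - t') • x ∈ P := by
    have := P.sub_mem ht ht'
    have e : w + t • x - (w + t' • x) = (t - t') • x := by module
    rwa [e] at this
  exact (Submodule.smul_mem_iff P hne').1 h1

/-- For `a ∉ P`, at most one point of the line `a + t e` lies in `P`. -/
theorem line_subsingleton' (P : Submodule K V) {a : V} (ha : a ∉ P) (e : V) :
    {t : K | a + t • e ∈ P}.Subsingleton := by
  by_cases he : e ∈ P
  · intro t ht
    exfalso
    apply ha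
    have := P.sub_mem ht (P.smul_mem t he)
    simpa using this
  · have := line_subsingleton P he a
    exact this

theorem exists_sep (p : Submodule K V) {x : V} (hx : x ∉ p) :
    ∃ f : Dual K V, f x ≠ 0 ∧ ∀ y ∈ p, f y = 0 := by
  obtain ⟨f, hf, hp⟩ := Submodule.exists_dual_map_eq_bot_of_notMem hx inferInstance
  refine ⟨f, hf, fun y hy => ?_⟩
  have : f y ∈ p.map f := Submodule.mem_map_of_mem hy
  rw [hp] at this
  simpa using this

/-- Functionals vanishing on `p` with nonzero values on three given points outside `p`. -/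
theorem exists_functional3 (hK : 4 ≤ Cardinal.mk K) (p : Submodule K V) {a b₁ b₂ : V}
    (ha : a ∉ p) (h₁ : b₁ ∉ p) (h₂ : b₂ ∉ p) :
    ∃ f : Dual K V, f a = 1 ∧ (∀ x ∈ p, f x = 0) ∧ f b₁ ≠ 0 ∧ f b₂ ≠ 0 := by
  obtain ⟨fa, hfa, hpa⟩ := exists_sep p ha
  obtain ⟨f₁, hf₁, hp₁⟩ := exists_sep p h₁
  obtain ⟨f₂, hf₂, hp₂⟩ := exists_sep p h₂
  -- first combine `fa` and `f₁`
  obtain ⟨t, ht1, ht2, -⟩ := exists_avoid3 hK {t : K | fa a + t * f₁ a = 0}
    {t : K | fa b₁ + t * f₁ b₁ = 0} ∅
    (affine_subsingleton _ _ (Or.inl hfa)) (affine_subsingleton _ _ (Or.inr hf₁))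
    Set.subsingleton_empty
  simp only [Set.mem_ofPred_eq] at ht1 ht2
  let g : Dual K V := fa + t • f₁
  have hg1 : g a ≠ 0 := by simpa [g] using ht1
  have hg2 : g b₁ ≠ 0 := by simpa [g] using ht2
  obtain ⟨t', ht1', ht2', ht3'⟩ := exists_avoid3 hK {t : K | g a + t * f₂ a = 0}
    {t : K | g b₁ + t * f₂ b₁ = 0} {t : K | g b₂ + t * f₂ b₂ = 0}
    (affine_subsingleton _ _ (Or.inl hg1)) (affine_subsingleton _ _ (Or.inl hg2))
    (affine_subsingleton _ _ (Or.inr hf₂))
  simp only [Set.mem_ofPred_eq] at ht1' ht2' ht3'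
  let h : Dual K V := g + t' • f₂
  have hh1 : h a ≠ 0 := by simpa [h] using ht1'
  have hh2 : h b₁ ≠ 0 := by simpa [h] using ht2'
  have hh3 : h b₂ ≠ 0 := by simpa [h] using ht3'
  have hp : ∀ x ∈ p, h x = 0 := by
    intro x hx
    simp [h, g, hpa x hx, hp₁ x hx, hp₂ x hx]
  refine ⟨(h a)⁻¹ • h, ?_, ?_, ?_, ?_⟩
  · simp [hh1]
  · intro x hx
    simp [hp x hx]
  · simp [hh1, hh2]
  · simp [hh1, hh3]

end Avoid

variable [FiniteDimensional K V]

/-- Rank one maps of determinant one are unipotent. -/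
theorem nil_of_rank_one (A : End K V) (hdet : LinearMap.det A = 1) (u : V)
    (h : ∀ x, (A - 1) x ∈ Submodule.span K {u}) : IsNilpotent (A - 1) := by
  by_cases hu : u = 0
  · refine ⟨1, ?_⟩
    ext x
    have := h x
    rw [hu] at this
    simpa using this
  obtain ⟨e, he, -⟩ := exists_sep (⊥ : Submodule K V) (x := u) (by simpa using hu)
  let b : Dual K V := (e u)⁻¹ • (e ∘ₗ (A - 1))
  have hb : ∀ x, (A - 1) x = b x • u := by
    intro x
    obtain ⟨t, ht⟩ := Submodule.mem_span_singleton.1 (h x)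
    rw [← ht]
    simp only [b, LinearMap.smul_apply, LinearMap.comp_apply, ← ht, map_smul, smul_eq_mul]
    congr 1
    field_simp
  have hA : A = LinearMap.transvection b u := by
    ext x
    rw [LinearMap.transvection.apply, ← hb]
    simp
  have hbu : b u = 0 := by
    rw [hA, LinearMap.transvection.det] at hdet
    simpa using hdet
  refine ⟨2, ?_⟩
  ext x
  rw [pow_two, Module.End.mul_apply, hb x, map_smul, hb u, hbu]
  simp

/-- The equivalence `V ≃ K × ker φ`. -/
noncomputable def splitEquiv (φ : Dual K V) (v : V) (hv : φ v = 1) :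
    V ≃ₗ[K] K × LinearMap.ker φ :=
  LinearEquiv.ofLinearMap (φ.prod (projK φ v hv))
    ((LinearMap.id.smulRight v).coprod (LinearMap.ker φ).subtype)
    (by
      ext x
      · simp [hv]
      · simp [hv]
      · have : φ (x : V) = 0 := x.2
        simp [this]
      · have : φ (x : V) = 0 := x.2
        simp [this])
    (by
      ext x
      simp)

theorem det_extK (φ : Dual K V) (v : V) (hv : φ v = 1) (T : End K (LinearMap.ker φ)) :
    LinearMap.det (extK φ v hv T v) = LinearMap.det T := by
  have h : LinearMap.det (LinearMap.prodMap (LinearMap.id : End K K) T)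
      = LinearMap.det (extK φ v hv T v) := by
    rw [← LinearMap.det_conj (extK φ v hv T v) (splitEquiv φ v hv)]
    congr 1
    ext x
    · simp [splitEquiv, extK_apply, projK_self, hv]
    · simp [splitEquiv, extK_apply, projK_self, hv]
    · have h0 : φ (x : V) = 0 := x.2
      simp [splitEquiv, extK_apply, h0, projK_mem]
    · have h0 : φ (x : V) = 0 := x.2
      simp [splitEquiv, extK_apply, h0, projK_mem]
  rw [← h, LinearMap.det_prodMap]
  simp

theorem det_schur (A : End K V) (φ : Dual K V) (v : V) (hv : φ v = 1) (hAv : φ (A v) = 1) :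
    LinearMap.det (schur φ (A v) hAv A) = LinearMap.det A := by
  let L' : End K V := LinearMap.transvection φ (A v - v)
  let U' : End K V := LinearMap.transvection (φ ∘ₗ A - φ) v
  have hfac : A = L' * extK φ v hv (schur φ (A v) hAv A) v * U' := by
    ext x
    rw [Module.End.mul_apply, Module.End.mul_apply]
    have h1 : U' x = x + (φ (A x) - φ x) • v := by
      simp [U', LinearMap.transvection.apply]
    rw [h1, extK_apply]
    have h2 : φ (x + (φ (A x) - φ x) • v) = φ (A x) := by
      simp [hv]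
    have h3 : ((projK φ v hv (x + (φ (A x) - φ x) • v) : LinearMap.ker φ) : V) = x - φ x • v := by
      rw [projK_coe, h2]
      module
    have h4 : φ ((x - φ x • v)) = 0 := by simp [hv]
    have h5 : φ (φ (A x) • v + ((schur φ (A v) hAv A
        (projK φ v hv (x + (φ (A x) - φ x) • v)) : LinearMap.ker φ) : V)) = φ (A x) := by
      have := (schur φ (A v) hAv A (projK φ v hv (x + (φ (A x) - φ x) • v))).2
      have h6 : φ ((schur φ (A v) hAv A
        (projK φ v hv (x + (φ (A x) - φ x) • v)) : LinearMap.ker φ) : V) = 0 := this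
      rw [map_add, map_smul, h6, hv]
      simp
    have h7 : L' (φ (A x) • v + ((schur φ (A v) hAv A
        (projK φ v hv (x + (φ (A x) - φ x) • v)) : LinearMap.ker φ) : V))
        = φ (A x) • v + ((schur φ (A v) hAv A
        (projK φ v hv (x + (φ (A x) - φ x) • v)) : LinearMap.ker φ) : V)
          + φ (A x) • (A v - v) := by
      simp only [L', LinearMap.transvection.apply]
      rw [h5]
    rw [h2, h7, schur_coe, h3]
    have h8 : φ (A (x - φ x • v)) = φ (A x) - φ x := by
      simp [hAv]
    rw [h8, map_sub, map_smul]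
    module
  conv_rhs => rw [hfac]
  rw [map_mul, map_mul, det_extK]
  simp [L', U', LinearMap.transvection.det, hv, hAv]

theorem trace_schur (A : End K V) (φ : Dual K V) (y : V) (hy : φ y = 1) :
    LinearMap.trace K _ (schur φ y hy A) = LinearMap.trace K _ A - φ (A y) := by
  have h1 : LinearMap.trace K _ (schur φ y hy A)
      = LinearMap.trace K _ ((LinearMap.ker φ).subtype ∘ₗ projK φ y hy ∘ₗ A) := by
    unfold schur
    rw [← LinearMap.comp_assoc, LinearMap.trace_comp_comm']
  rw [h1]
  have h2 : (LinearMap.ker φ).subtype ∘ₗ projK φ y hy ∘ₗ A = A - (φ ∘ₗ A).smulRight y := by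
    ext x
    simp
  rw [h2, map_sub, LinearMap.trace_smulRight]
  simp

/-- A unipotent map has trace equal to the dimension. -/
theorem trace_of_unipotent (T : End K V) (h : IsNilpotent (T - 1)) :
    LinearMap.trace K _ T = (finrank K V : K) := by
  have h1 := LinearMap.isNilpotent_trace_of_isNilpotent h
  have h2 : LinearMap.trace K V (T - 1) = 0 := h1.eq_zero
  rw [map_sub, sub_eq_zero] at h2
  rw [h2]
  exact LinearMap.trace_one K V

/-- One dimensional: determinant one means the identity. -/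
theorem eq_one_of_finrank_one (A : End K V) (hr : finrank K V = 1) (hdet : LinearMap.det A = 1) :
    A = 1 := by
  obtain ⟨u, hu0, hu⟩ := finrank_eq_one_iff'.1 hr
  obtain ⟨a, ha⟩ := hu (A u)
  have hA : A = a • (1 : End K V) := by
    ext x
    obtain ⟨b, hb⟩ := hu x
    rw [← hb, map_smul, ← ha]
    simp only [LinearMap.smul_apply, Module.End.one_apply]
    rw [smul_comm]
  rw [hA, LinearMap.det_smul, hr, pow_one, map_one, mul_one] at hdet
  rw [hA, hdet, one_smul]

end Cfsg.Agent.Lib.Linalg.Sourour
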