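import Cfsg.Agent.Lib.Linalg.Sourour.Choice

/-!
# Every nonscalar endomorphism of determinant one is a product of two regular unipotents
-/

namespace Cfsg.Agent.Lib.Linalg.Sourour

open Module LinearMap

universe u v

theorem main_factor {K : Type u} [Field K] (hK : 4 ≤ Cardinal.mk K) :
    ∀ (n : ℕ) (V : Type v) [AddCommGroup V] [Module K V] [FiniteDimensional K V],
      finrank K V = n + 1 → ∀ A : End K V, LinearMap.det A = 1 →
      (n = 0 ∨ ((∀ a : K, A ≠ a • 1) ∧ ¬ IsNilpotent (A - 1))) →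
      ∀ c : V, c ≠ 0 → ∀ r : Dual K V, r ≠ 0 →
      ∃ L U : End K V, RegU L ∧ RegU U ∧ A = L * U ∧ (∀ x, (L - 1) x ≠ c) ∧
        ∃ x, (U - 1) x = 0 ∧ r x ≠ 0 := by
  intro n
  induction n with
  | zero =>
    intro V _ _ _ hr' A hdet _ c hc r hr
    have h1 : A = 1 := eq_one_of_finrank_one A hr' hdet
    have hfr := finrank_eq_one_iff'.1 hr'
    have hreg := regU_one (K := K) hfr
    refine ⟨1, 1, hreg, hreg, by rw [h1, mul_one], ?_, ?_⟩
    · intro x h
      apply hc
      rw [← h]
      simp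
    · have : ∃ x, r x ≠ 0 := by
        by_contra hcon
        push Not at hcon
        exact hr (LinearMap.ext hcon)
      obtain ⟨x, hx⟩ := this
      exact ⟨x, by simp, hx⟩
  | succ n ih =>
    intro V _ _ _ hr' A hdet hcond c hc r hr
    have hcond' := hcond.resolve_left (by omega)
    obtain ⟨v, φ, hv, hAv, hAvv, ⟨x₀, hx₀⟩, hφc, hrv, hsch⟩ :=
      choice hK (by omega) A hdet hcond'.1 hcond'.2 c hc r hr
    have hφ0 : φ ≠ 0 := by
      intro h
      rw [h] at hv
      simp at hv
    have hfrW : finrank K (LinearMap.ker φ) = n + 1 := by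
      have := Module.Dual.finrank_ker_add_one_of_ne_zero hφ0
      omega
    have hdet₁ := det_schur A φ v hv hAv
    have hc₁ : A v - v ∈ LinearMap.ker φ := by
      simp [hv, hAv]
    let s : Dual K (LinearMap.ker φ) := φ ∘ₗ A ∘ₗ (LinearMap.ker φ).subtype
    have hs0 : s ≠ 0 := by
      intro h
      apply hx₀
      have h1 : s (projK φ v hv x₀) = 0 := by rw [h]; rfl
      have h2 : s (projK φ v hv x₀) = φ (A x₀) - φ x₀ := by
        simp [s, hAv]
      rw [h2] at h1
      exact sub_eq_zero.1 h1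
    have hcond₁ : n = 0 ∨ ((∀ a : K, schur φ (A v) hAv A ≠ a • 1) ∧
        ¬ IsNilpotent (schur φ (A v) hAv A - 1)) := by
      by_cases hn : n = 0
      · exact Or.inl hn
      · exact Or.inr (hsch (by omega))
    obtain ⟨L₁, U₁, hL₁, hU₁, hfac, hcL, hrU⟩ := ih (LinearMap.ker φ) hfrW
      (schur φ (A v) hAv A) (by rw [hdet₁, hdet]) hcond₁ ⟨A v - v, hc₁⟩
      (by
        intro h
        have h1 : A v - v = 0 := congrArg Subtype.val h
        exact hAvv (sub_eq_zero.1 h1))
      s hs0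
    obtain ⟨L, U, hL, hU, hAfac, hrange, hUv⟩ := step_factor A φ v hv hAv L₁ U₁ hL₁ hU₁ hfac
      (by
        intro w hw
        exact hcL w (Subtype.ext hw))
      hrU
    refine ⟨L, U, hL, hU, hAfac, ?_, v, hUv, hrv⟩
    intro x h
    apply hφc
    rw [← h]
    exact hrange x

theorem factor_of_nonscalar {K : Type u} [Field K] (hK : 4 ≤ Cardinal.mk K)
    {V : Type v} [AddCommGroup V] [Module K V] [FiniteDimensional K V]
    (hV : 0 < finrank K V) (A : End K V) (hdet : LinearMap.det A = 1)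
    (hs : ∀ a : K, A ≠ a • 1) :
    ∃ L U : End K V, RegU L ∧ RegU U ∧ A = L * U := by
  obtain ⟨n, hn⟩ : ∃ n, finrank K V = n + 1 := ⟨finrank K V - 1, by omega⟩
  by_cases hu : IsNilpotent (A - 1)
  · exact unipotent_factor hK n V hn A hu
  · have : Nontrivial V := Module.nontrivial_of_finrank_pos (R := K) hV
    obtain ⟨c, hc⟩ := exists_ne (0 : V)
    obtain ⟨r, hr, -⟩ := exists_sep (⊥ : Submodule K V) (x := c) (by simpa using hc)
    have hr0 : r ≠ 0 := by
      rintro rfl
      simp at hr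
    obtain ⟨L, U, hL, hU, hfac, -, -⟩ :=
      main_factor hK n V hn A hdet (Or.inr ⟨hs, hu⟩) c hc r hr0
    exact ⟨L, U, hL, hU, hfac⟩

end Cfsg.Agent.Lib.Linalg.Sourour
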