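import Cfsg.Agent.Lib.Linalg.Sourour.Unip

/-!
# Local quadraticity implies global quadraticity

If every vector outside two proper subspaces `H, Y` satisfies a monic quadratic relation for a
non-scalar `A`, over a field with at least four elements, then `A` itself is quadratic.
-/

namespace Cfsg.Agent.Lib.Linalg.Sourour

open Module LinearMap

variable {K : Type*} [Field K] {V : Type*} [AddCommGroup V] [Module K V]

/-- Outside two subspaces. -/
def InD (H Y : Submodule K V) (x : V) : Prop := x ∉ H ∧ x ∉ Y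

theorem line1 (hK : 4 ≤ Cardinal.mk K) {H Y : Submodule K V} {x : V} (hx : InD H Y x) (w : V) :
    ∃ t : K, t ≠ 0 ∧ InD H Y (w + t • x) := by
  obtain ⟨t, h0, h1, h2⟩ := exists_avoid3 hK {0} {t : K | w + t • x ∈ H} {t : K | w + t • x ∈ Y}
    Set.subsingleton_singleton (line_subsingleton H hx.1 w) (line_subsingleton Y hx.2 w)
  exact ⟨t, by simpa using h0, h1, h2⟩

theorem line2 (hK : 4 ≤ Cardinal.mk K) {H Y : Submodule K V} {x : V} (hx : InD H Y x) (e : V) :
    ∃ t : K, t ≠ 0 ∧ InD H Y (x + t • e) := by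
  obtain ⟨t, h0, h1, h2⟩ := exists_avoid3 hK {0} {t : K | x + t • e ∈ H} {t : K | x + t • e ∈ Y}
    Set.subsingleton_singleton (line_subsingleton' H hx.1 e) (line_subsingleton' Y hx.2 e)
  exact ⟨t, by simpa using h0, h1, h2⟩

theorem exists_inD {H Y : Submodule K V} (hH : H ≠ ⊤) (hY : Y ≠ ⊤) : ∃ x, InD H Y x :=
  exists_not_mem_two hH hY

theorem InD.ne_zero {H Y : Submodule K V} {x : V} (hx : InD H Y x) : x ≠ 0 := by
  rintro rfl
  exact hx.1 H.zero_mem

/-- Some vector outside `H, Y` is not an eigenvector. -/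
theorem exists_noneigen (hK : 4 ≤ Cardinal.mk K) {H Y : Submodule K V} (hH : H ≠ ⊤) (hY : Y ≠ ⊤)
    (A : End K V) (hs : ∀ a : K, A ≠ a • 1) :
    ∃ x, InD H Y x ∧ ∀ a : K, A x ≠ a • x := by
  by_contra hcon
  push Not at hcon
  obtain ⟨x₀, hx₀⟩ := exists_inD hH hY
  obtain ⟨a, ha⟩ := hcon x₀ hx₀
  apply hs a
  have hall : ∀ x, InD H Y x → A x = a • x := by
    intro x hx
    obtain ⟨a', ha'⟩ := hcon x hx
    by_cases heq : a' = a
    · rw [ha', heq]
    exfalso
    obtain ⟨t, ht, hD⟩ := line1 hK hx₀ x
    obtain ⟨b, hb⟩ := hcon _ hD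
    rw [map_add, map_smul, ha, ha'] at hb
    -- `(a' - b) x + t (a - b) x₀ = 0`
    have h1 : (a' - b) • x + (t * (a - b)) • x₀ = 0 := by
      linear_combination (norm := module) hb
    have h2 := congrArg A h1
    rw [map_add, map_smul, map_smul, ha, ha', map_zero] at h2
    have h3 : ((a' - b) * (a' - a)) • x = 0 := by
      linear_combination (norm := module) h2 - a • h1
    have hx0 := hx.ne_zero
    have h4 : (a' - b) * (a' - a) = 0 := (smul_eq_zero.1 h3).resolve_right hx0
    have h5 : a' - b = 0 := (mul_eq_zero.1 h4).resolve_right (sub_ne_zero.2 heq)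
    rw [h5, zero_smul, zero_add] at h1
    have h6 : t * (a - b) = 0 := (smul_eq_zero.1 h1).resolve_right hx₀.ne_zero
    have h7 : a - b = 0 := (mul_eq_zero.1 h6).resolve_left ht
    apply heq
    linear_combination h5 - h7
  ext w
  obtain ⟨t, ht, hD⟩ := line1 hK hx₀ w
  have h := hall _ hD
  rw [map_add, map_smul, ha] at h
  simp only [LinearMap.smul_apply, Module.End.one_apply]
  linear_combination (norm := module) h

/-- Lemma E. -/
theorem no_quad_add_eigen (A : End K V) (x e : V) (τ δ c η g₁ g₀ : K)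
    (hne : ∀ a : K, A x ≠ a • x) (hx0 : x ≠ 0)
    (h1 : A (A x) = τ • A x - δ • x) (he : A e = c • e) (he0 : e ≠ 0)
    (hq : c ^ 2 - τ * c + δ ≠ 0) (hη : η ≠ 0)
    (h : A (A (x + η • e)) = g₁ • A (x + η • e) - g₀ • (x + η • e)) : False := by
  have hindep : ∀ p s : K, p • x + s • A x = 0 → p = 0 ∧ s = 0 := by
    intro p s hps
    have hs : s = 0 := by
      by_contra hs
      apply hne (-(p / s))
      have : A x = s⁻¹ • (s • A x) := by rw [smul_smul, inv_mul_cancel₀ hs, one_smul]
      rw [this, eq_neg_of_add_eq_zero_right hps, smul_neg, smul_smul, neg_smul]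
      congr 2
      field_simp
    rw [hs, zero_smul, add_zero] at hps
    exact ⟨(smul_eq_zero.1 hps).resolve_right hx0, hs⟩
  simp only [map_add, map_smul, he, h1] at h
  -- the relation `(R)`
  have hR : (τ - g₁) • A x + (g₀ - δ) • x + (η * (c ^ 2 - g₁ * c + g₀)) • e = 0 := by
    linear_combination (norm := module) h
  have hA := congrArg A hR
  simp only [map_add, map_smul, he, h1, map_zero] at hA
  have hS : ((g₀ - δ) * (-c) - (τ - g₁) * δ) • x + ((τ - g₁) * (τ - c) + (g₀ - δ)) • A x = 0 := by
    linear_combination (norm := module) hA - c • hR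
  obtain ⟨h2, h3⟩ := hindep _ _ hS
  have h4 : (τ - g₁) * (c ^ 2 - τ * c + δ) = 0 := by linear_combination -h2 - c * h3
  have h5 : τ - g₁ = 0 := (mul_eq_zero.1 h4).resolve_right hq
  have h6 : g₀ - δ = 0 := by
    rw [h5, zero_mul, zero_add] at h3
    exact h3
  have h7 : g₁ = τ := by linear_combination -h5
  have h8 : g₀ = δ := by linear_combination h6
  rw [h5, h6, zero_smul, zero_smul, add_zero, zero_add, h7, h8] at hR
  rcases smul_eq_zero.1 hR with h9 | h9
  · rcases mul_eq_zero.1 h9 with h10 | h10
    · exact hη h10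
    · exact hq h10
  · exact he0 h9

/-- The key computation. -/
theorem core_two (A : End K V) (x x' : V) (τ δ τ' δ' m n l : K)
    (hne : ∀ a : K, A x ≠ a • x) (hx0 : x ≠ 0)
    (h1 : A (A x) = τ • A x - δ • x)
    (h2 : A (A x') = τ' • A x' - δ' • x')
    (hl : l ≠ 0)
    (h3 : A (A (x + l • x')) = m • A (x + l • x') - n • (x + l • x'))
    (hx' : ∀ p s : K, x' ≠ p • x + s • A x) :
    A (A x') = τ • A x' - δ • x' ∨
      ∃ (c : K) (e : V), A e = c • e ∧ e ≠ 0 ∧ c ^ 2 - τ * c + δ ≠ 0 := by
  have hindep : ∀ p s : K, p • x + s • A x = 0 → p = 0 ∧ s = 0 := by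
    intro p s hps
    have hs : s = 0 := by
      by_contra hs
      apply hne (-(p / s))
      have : A x = s⁻¹ • (s • A x) := by rw [smul_smul, inv_mul_cancel₀ hs, one_smul]
      rw [this, eq_neg_of_add_eq_zero_right hps, smul_neg, smul_smul, neg_smul]
      congr 2
      field_simp
    rw [hs, zero_smul, add_zero] at hps
    exact ⟨(smul_eq_zero.1 hps).resolve_right hx0, hs⟩
  simp only [map_add, map_smul, h1, h2] at h3
  set s : K := τ - m with hs_def
  set p : K := n - δ with hp_def
  set s' : K := l * (m - τ') with hs'_def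
  set p' : K := l * (δ' - n) with hp'_def
  have hy : s • A x + p • x = s' • A x' + p' • x' := by
    simp only [hs_def, hp_def, hs'_def, hp'_def]
    linear_combination (norm := module) h3
  by_cases hy0 : s • A x + p • x = 0
  · -- `y = 0`
    left
    have hh := hindep p s (by rw [add_comm]; exact hy0)
    have h4 : s' • A x' + p' • x' = 0 := by rw [← hy, hy0]
    have hm : m = τ := by
      have := hh.2
      rw [hs_def] at this
      linear_combination -this
    have hn : n = δ := by
      have := hh.1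
      rw [hp_def] at this
      linear_combination this
    rw [hs'_def, hp'_def, hm, hn] at h4
    have h5 : l⁻¹ • ((l * (τ - τ')) • A x' + (l * (δ' - δ)) • x') = 0 := by rw [h4, smul_zero]
    have h6 : (l⁻¹ * (l * (τ - τ'))) • A x' + (l⁻¹ * (l * (δ' - δ))) • x' = 0 := by
      rw [← h5, smul_add, smul_smul, smul_smul]
    rw [inv_mul_cancel_left₀ hl, inv_mul_cancel_left₀ hl] at h6
    rw [h2]
    linear_combination (norm := module) -h6
  -- `y ≠ 0`
  set y : V := s • A x + p • x with hy_def
  have hxZ : ∀ (q : K) (z : V), (∃ a b : K, z = a • x + b • A x) → q • x' = z → q = 0 := by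
    intro q z hz hq
    by_contra hq0
    obtain ⟨a, b, hab⟩ := hz
    apply hx' (q⁻¹ * a) (q⁻¹ * b)
    have : x' = q⁻¹ • (q • x') := by rw [smul_smul, inv_mul_cancel₀ hq0, one_smul]
    rw [this, hq, hab, smul_add, smul_smul, smul_smul]
  have hs'0 : s' ≠ 0 := by
    intro h
    rw [h, zero_smul, zero_add] at hy
    have hp'0 : p' = 0 := hxZ p' y ⟨p, s, by rw [hy_def]; abel⟩ hy.symm
    rw [hp'0, zero_smul] at hy
    exact hy0 hy
  -- `A x' = c x' + β y`
  set β : K := s'⁻¹ with hβ
  set c : K := -(p' * s'⁻¹) with hc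
  have hAx' : A x' = c • x' + β • y := by
    rw [hy]
    simp only [hc, hβ]
    have e1 : s'⁻¹ • (s' • A x' + p' • x') = A x' + (s'⁻¹ * p') • x' := by
      rw [smul_add, smul_smul, smul_smul, inv_mul_cancel₀ hs'0, one_smul]
    rw [e1]
    have e2 : s'⁻¹ * p' = p' * s'⁻¹ := mul_comm _ _
    rw [e2]
    module
  -- `A y = a y`
  set a : K := (s' * τ' + p') * β with ha
  have hAy : A y = a • y := by
    have hAy1 : A y = (s * τ + p) • A x + (-(s * δ)) • x := by
      rw [hy_def]
      simp only [map_add, map_smul, h1]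
      module
    have hAy2 : A y = ((s' * τ' + p') * c - s' * δ') • x' + a • y := by
      have : A y = A (s' • A x' + p' • x') := by rw [hy]
      rw [this]
      simp only [map_add, map_smul, h2]
      have e3 : s' • (τ' • A x' - δ' • x') + p' • A x' = (s' * τ' + p') • A x' - (s' * δ') • x' := by
        module
      rw [e3, hAx']
      simp only [ha]
      module
    have hκ : (s' * τ' + p') * c - s' * δ' = 0 := by
      apply hxZ _ (A y - a • y)
      · refine ⟨-(s * δ) - a * p, (s * τ + p) - a * s, ?_⟩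
        rw [hAy1, hy_def]
        module
      · rw [hAy2]
        abel
    rw [hAy2, hκ, zero_smul, zero_add]
  have hs0 : s ≠ 0 := by
    intro h
    have hyp : y = p • x := by rw [hy_def, h, zero_smul, zero_add]
    have hp0 : p ≠ 0 := by
      intro hp
      rw [hp, zero_smul] at hyp
      exact hy0 hyp
    apply hne a
    have h5 : p • A x = p • (a • x) := by
      have := hAy
      rw [hyp, map_smul] at this
      rw [this, smul_comm]
    exact smul_right_injective V hp0 h5
  -- `A x = b x + α y`
  set α : K := s⁻¹ with hα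
  set b : K := -(p * s⁻¹) with hb
  have hAx : A x = b • x + α • y := by
    rw [hy_def]
    simp only [hb, hα]
    have e1 : s⁻¹ • (s • A x + p • x) = A x + (s⁻¹ * p) • x := by
      rw [smul_add, smul_smul, smul_smul, inv_mul_cancel₀ hs0, one_smul]
    rw [e1]
    have e2 : s⁻¹ * p = p * s⁻¹ := mul_comm _ _
    rw [e2]
    module
  have hαs : α * s = 1 := inv_mul_cancel₀ hs0
  have hβs : β * s' = 1 := inv_mul_cancel₀ hs'0
  have hA2x : A (A x) = (b ^ 2) • x + (α * (a + b)) • y := by
    rw [hAx]
    simp only [map_add, map_smul, hAy]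
    rw [hAx]
    module
  have hA2x' : A (A x') = (c ^ 2) • x' + (β * (a + c)) • y := by
    rw [hAx']
    simp only [map_add, map_smul, hAy]
    rw [hAx']
    module
  -- `a + b = τ`, `a b = δ`
  have hτδ : a + b = τ ∧ a * b = δ := by
    have h5 : (b ^ 2 - τ * b + δ + α * (a + b - τ) * p) • x + (α * (a + b - τ) * s) • A x = 0 := by
      have e := hA2x
      rw [h1, hAx] at e
      have e' : (b ^ 2 - τ * b + δ) • x + (α * (a + b - τ)) • y = 0 := by
        linear_combination (norm := module) -e
      rw [hy_def] at e'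
      linear_combination (norm := module) e'
    obtain ⟨h6, h7⟩ := hindep _ _ h5
    have h8 : a + b - τ = 0 := by
      have : α * s * (a + b - τ) = 0 := by linear_combination h7
      rw [hαs, one_mul] at this
      exact this
    rw [h8, mul_zero, zero_mul, add_zero] at h6
    have h9 : a + b = τ := by linear_combination h8
    refine ⟨h9, ?_⟩
    rw [← h9] at h6
    linear_combination -h6
  obtain ⟨hτ, hδ⟩ := hτδ
  -- the relation for `x + l x'`
  have h3' : (b ^ 2 - m * b + n) • x + (l * (c ^ 2 - m * c + n)) • x'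
      + (α * (a + b - m) + l * β * (a + c - m)) • y = 0 := by
    have e1 : (τ - m) • A x + (n - δ) • x + (l * (τ' - m)) • A x' + (l * (n - δ')) • x' = 0 := by
      linear_combination (norm := module) h3
    have e2 : τ • A x - δ • x = (b ^ 2) • x + (α * (a + b)) • y := by rw [← h1, hA2x]
    have e3 : τ' • A x' - δ' • x' = (c ^ 2) • x' + (β * (a + c)) • y := by rw [← h2, hA2x']
    have e4 : (b ^ 2 - m * b + n) • x + (l * (c ^ 2 - m * c + n)) • x'
      + (α * (a + b - m) + l * β * (a + c - m)) • y
        = (τ - m) • A x + (n - δ) • x + (l * (τ' - m)) • A x' + (l * (n - δ')) • x'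
          + ((b ^ 2) • x + (α * (a + b)) • y - (τ • A x - δ • x))
          + l • ((c ^ 2) • x' + (β * (a + c)) • y - (τ' • A x' - δ' • x'))
          + m • (A x - b • x - α • y) + (l * m) • (A x' - c • x' - β • y) := by
      module
    have e5 : A x - b • x - α • y = 0 := by rw [hAx]; abel
    have e6 : A x' - c • x' - β • y = 0 := by rw [hAx']; abel
    rw [e4, e1, ← e2, ← e3, e5, e6]
    simp
  have hR0 : l * (c ^ 2 - m * c + n) = 0 := by
    apply hxZ _ (-((b ^ 2 - m * b + n) • x + (α * (a + b - m) + l * β * (a + c - m)) • y))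
    · refine ⟨-(b ^ 2 - m * b + n) - (α * (a + b - m) + l * β * (a + c - m)) * p,
        -(α * (a + b - m) + l * β * (a + c - m)) * s, ?_⟩
      rw [hy_def]
      module
    · linear_combination (norm := module) h3'
  have hc2 : c ^ 2 - m * c + n = 0 := (mul_eq_zero.1 hR0).resolve_left hl
  rw [hR0, zero_smul, add_zero] at h3'
  have hSP : (b ^ 2 - m * b + n) + (α * (a + b - m) + l * β * (a + c - m)) * p = 0 ∧
      (α * (a + b - m) + l * β * (a + c - m)) * s = 0 := by
    apply hindep
    rw [hy_def] at h3'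
    linear_combination (norm := module) h3'
  have hS0 : α * (a + b - m) + l * β * (a + c - m) = 0 :=
    (mul_eq_zero.1 hSP.2).resolve_right hs0
  have hb2 : b ^ 2 - m * b + n = 0 := by
    have := hSP.1
    rw [hS0, zero_mul, add_zero] at this
    exact this
  by_cases hcb : c = b
  · left
    rw [hA2x', hAx', ← hτ, ← hδ, hcb]
    module
  · right
    have hm : m = b + c := by
      have h5 : (b - c) * (b + c - m) = 0 := by linear_combination hb2 - hc2
      have h6 : b - c ≠ 0 := sub_ne_zero.2 (Ne.symm hcb)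
      have h7 := (mul_eq_zero.1 h5).resolve_left h6
      linear_combination -h7
    have hs_eq : s = a - c := by
      rw [hs_def, ← hτ, hm]
      ring
    have hac : c - a ≠ 0 := by
      intro h
      apply hs0
      rw [hs_eq]
      linear_combination -h
    refine ⟨c, x' + (β / (c - a)) • y, ?_, ?_, ?_⟩
    · rw [map_add, map_smul, hAy, hAx']
      have e : c • x' + β • y + (β / (c - a)) • a • y - c • (x' + (β / (c - a)) • y)
          = (β + β / (c - a) * a - c * (β / (c - a))) • y := by
        module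
      have e2 : β + β / (c - a) * a - c * (β / (c - a)) = 0 := by
        field_simp
        ring
      rw [e2, zero_smul] at e
      exact sub_eq_zero.1 e
    · intro h
      have h5 : (1 : K) • x' = -((β / (c - a)) • y) := by
        rw [one_smul]
        exact eq_neg_of_add_eq_zero_left h
      have := hxZ 1 _ ⟨-((β / (c - a)) * p), -((β / (c - a)) * s), by rw [hy_def]; module⟩ h5
      exact one_ne_zero this
    · rw [← hτ, ← hδ]
      have : c ^ 2 - (a + b) * c + a * b = (c - a) * (c - b) := by ring
      rw [this]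
      exact mul_ne_zero hac (sub_ne_zero.2 hcb)

/-- Local quadraticity implies global quadraticity. -/
theorem quad_of_local (hK : 4 ≤ Cardinal.mk K) {H Y : Submodule K V} (hH : H ≠ ⊤) (hY : Y ≠ ⊤)
    (A : End K V) (hs : ∀ a : K, A ≠ a • 1)
    (hloc : ∀ x, InD H Y x → ∃ τ δ : K, A (A x) = τ • A x - δ • x) :
    ∃ τ δ : K, ∀ x, A (A x) = τ • A x - δ • x := by
  obtain ⟨x, hxD, hne⟩ := exists_noneigen hK hH hY A hs
  have hx0 := hxD.ne_zero
  obtain ⟨τ, δ, h1⟩ := hloc x hxD
  have hD : ∀ x', InD H Y x' → A (A x') = τ • A x' - δ • x' := by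
    intro x' hx'D
    by_cases hZ : ∃ p s : K, x' = p • x + s • A x
    · obtain ⟨p, s, rfl⟩ := hZ
      simp only [map_add, map_sub, map_smul, h1]
      module
    · push Not at hZ
      obtain ⟨τ', δ', h2⟩ := hloc x' hx'D
      obtain ⟨l, hl, hlD⟩ := line2 hK hxD x'
      obtain ⟨m, n, h3⟩ := hloc _ hlD
      rcases core_two A x x' τ δ τ' δ' m n l hne hx0 h1 h2 hl h3 hZ with h | ⟨c, e, he, he0, hq⟩
      · exact h
      · exfalso
        obtain ⟨η, hη, hηD⟩ := line2 hK hxD e
        obtain ⟨g₁, g₀, h4⟩ := hloc _ hηD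
        exact no_quad_add_eigen A x e τ δ c η g₁ g₀ hne hx0 h1 he he0 hq hη h4
  refine ⟨τ, δ, fun w => ?_⟩
  obtain ⟨t, ht, hwD⟩ := line1 hK hxD w
  have h5 := hD _ hwD
  simp only [map_add, map_smul, h1] at h5
  linear_combination (norm := module) h5

end Cfsg.Agent.Lib.Linalg.Sourour
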