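import Cfsg.Agent.Lib.Linalg.Sourour.Invariants

/-!
# Every unipotent endomorphism is a product of two regular unipotent ones
-/

namespace Cfsg.Agent.Lib.Linalg.Sourour

open Module LinearMap

universe u v

section General

variable {K : Type u} [Field K] {V : Type v} [AddCommGroup V] [Module K V]

theorem exists_not_mem_one {P : Submodule K V} (h : P ≠ ⊤) : ∃ x, x ∉ P := by
  by_contra hcon
  push Not at hcon
  exact h (Submodule.eq_top_iff'.2 hcon)

theorem exists_not_mem_two {P₁ P₂ : Submodule K V} (h₁ : P₁ ≠ ⊤) (h₂ : P₂ ≠ ⊤) :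
    ∃ x, x ∉ P₁ ∧ x ∉ P₂ := by
  obtain ⟨x₁, hx₁⟩ := exists_not_mem_one h₁
  obtain ⟨x₂, hx₂⟩ := exists_not_mem_one h₂
  by_cases h1 : x₁ ∈ P₂
  · by_cases h2 : x₂ ∈ P₁
    · refine ⟨x₁ + x₂, fun h => hx₁ ?_, fun h => hx₂ ?_⟩
      · exact (Submodule.add_mem_iff_left _ h2).1 h
      · exact (Submodule.add_mem_iff_right _ h1).1 h
    · exact ⟨x₂, h2, hx₂⟩
  · exact ⟨x₁, hx₁, h1⟩

theorem nil_range_ne_top [Nontrivial V] (B : End K V) (h : IsNilpotent B) :
    LinearMap.range B ≠ ⊤ := by
  intro htop
  have hs : Function.Surjective B := LinearMap.range_eq_top.1 htop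
  obtain ⟨k, hk⟩ := h
  have hsk : ∀ k : ℕ, Function.Surjective (B ^ k) := by
    intro k
    induction k with
    | zero =>
      rw [pow_zero]
      exact Function.surjective_id
    | succ k ih =>
      rw [pow_succ]
      exact ih.comp hs
  obtain ⟨y, hy⟩ := exists_ne (0 : V)
  obtain ⟨x, hx⟩ := hsk k y
  rw [hk] at hx
  exact hy (by simpa using hx.symm)

theorem regU_one (hfr : ∃ u : V, u ≠ 0 ∧ ∀ w : V, ∃ c : K, c • u = w) :
    RegU (1 : End K V) := by
  obtain ⟨u, hu0, hu⟩ := hfr
  refine ⟨by simp, u, hu0, ?_⟩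
  rw [sub_self]
  apply le_antisymm
  · intro x _
    obtain ⟨c, hc⟩ := hu x
    rw [Submodule.mem_span_singleton]
    exact ⟨c, hc⟩
  · simp

end General

theorem unipotent_factor {K : Type u} [Field K] (hK : 4 ≤ Cardinal.mk K) :
    ∀ (n : ℕ) (V : Type v) [AddCommGroup V] [Module K V] [FiniteDimensional K V],
      finrank K V = n + 1 → ∀ g : End K V, IsNilpotent (g - 1) →
      ∃ L U : End K V, RegU L ∧ RegU U ∧ g = L * U := by
  intro n
  induction n with
  | zero =>
    intro V _ _ _ hr g hg
    have hfr := finrank_eq_one_iff'.1 hr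
    have h1 := regU_one (K := K) hfr
    obtain ⟨u, hu0, hu⟩ := hfr
    refine ⟨1, 1, h1, h1, ?_⟩
    obtain ⟨t, ht⟩ := hu ((g - 1) u)
    have hpow : ∀ k : ℕ, ((g - 1) ^ k) u = t ^ k • u := by
      intro k
      induction k with
      | zero => simp
      | succ k ih =>
        rw [pow_succ, Module.End.mul_apply, ← ht, map_smul, ih, smul_smul, pow_succ, mul_comm]
    obtain ⟨k, hk⟩ := hg
    have h2 := hpow k
    rw [hk] at h2
    have h3 : t ^ k = 0 := by
      by_contra hne
      have := (smul_ne_zero hne hu0)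
      exact this (by simpa using h2.symm)
    have h4 : t = 0 := by
      by_contra hne
      exact (pow_ne_zero k hne) h3
    rw [h4, zero_smul] at ht
    have hgu : g u = u := by
      have : (g - 1) u = 0 := ht.symm
      simpa [sub_eq_zero] using this
    rw [mul_one]
    ext x
    obtain ⟨c, hc⟩ := hu x
    rw [← hc, map_smul, hgu]
    simp
  | succ n ih =>
    intro V _ _ _ hr g hg
    have : Nontrivial V := Module.nontrivial_of_finrank_pos (R := K) (by omega)
    have hrng := nil_range_ne_top (g - 1) hg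
    obtain ⟨v, hv'⟩ := exists_not_mem_one hrng
    obtain ⟨φ₀, hφ₀, hφ₀r⟩ := exists_sep _ hv'
    let φ : Dual K V := (φ₀ v)⁻¹ • φ₀
    have hv : φ v = 1 := by simp [φ, hφ₀]
    have hφg : ∀ x, φ (g x) = φ x := by
      intro x
      have h1 : φ₀ ((g - 1) x) = 0 := hφ₀r _ (LinearMap.mem_range_self _ _)
      have h2 : φ₀ (g x) = φ₀ x := by
        simpa [sub_eq_zero] using h1
      simp [φ, h2]
    have hφne : φ ≠ 0 := by
      intro h
      rw [h] at hv
      simp at hv
    have hfrW : finrank K (LinearMap.ker φ) = n + 1 := by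
      have := Module.Dual.finrank_ker_add_one_of_ne_zero hφne
      omega
    let g₁ : End K (LinearMap.ker φ) := schur φ v hv g
    have hg₁ : ∀ w : LinearMap.ker φ, (g₁ w : V) = g (w : V) := by
      intro w
      have h0 : φ (w : V) = 0 := w.2
      simp [g₁, hφg, h0]
    have hg₁nil : IsNilpotent (g₁ - 1) := by
      obtain ⟨k, hk⟩ := hg
      refine ⟨k, ?_⟩
      have hpow : ∀ (k : ℕ) (w : LinearMap.ker φ),
          ((((g₁ - 1) ^ k) w : LinearMap.ker φ) : V) = ((g - 1) ^ k) (w : V) := by
        intro k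
        induction k with
        | zero => intro w; simp
        | succ k ih =>
          intro w
          rw [pow_succ, pow_succ, Module.End.mul_apply, Module.End.mul_apply, ih]
          congr 1
          simp [hg₁]
      ext w
      rw [hpow, hk]
      simp
    obtain ⟨L₁, U₁, hL₁, hU₁, hfac⟩ := ih (LinearMap.ker φ) hfrW g₁ hg₁nil
    have : Nontrivial (LinearMap.ker φ) :=
      Module.nontrivial_of_finrank_pos (R := K) (by omega)
    obtain ⟨x, hx1, hx2⟩ := exists_not_mem_two (nil_range_ne_top (U₁ - 1) hU₁.1)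
      (nil_range_ne_top (L₁ - 1) hL₁.1)
    have hd : φ (g v - v) = 0 := by simp [hφg]
    let d : LinearMap.ker φ := ⟨g v - v, hd⟩
    have hx3 : -x ∉ LinearMap.range (L₁ - 1) := fun h => hx2 (by simpa using Submodule.neg_mem _ h)
    obtain ⟨t, ht0, ht1, -⟩ := exists_avoid3 hK {0}
      {t : K | d + t • (-x) ∈ LinearMap.range (L₁ - 1)} ∅
      Set.subsingleton_singleton (line_subsingleton _ hx3 d) Set.subsingleton_empty
    have ht0' : t ≠ 0 := by simpa using ht0
    simp only [Set.mem_ofPred_eq] at ht1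
    let b : LinearMap.ker φ := t • x
    have hb1 : b ∉ LinearMap.range (U₁ - 1) := by
      intro h
      exact hx1 ((Submodule.smul_mem_iff _ ht0').1 h)
    have hb2 : d - b ∉ LinearMap.range (L₁ - 1) := by
      intro h
      apply ht1
      have e : d + t • (-x) = d - b := by simp [b, sub_eq_add_neg]
      rw [e]
      exact h
    let a : LinearMap.ker φ := d - L₁ b
    have ha : a ∉ LinearMap.range (L₁ - 1) := by
      rintro ⟨w, hw⟩
      apply hb2
      refine ⟨w + b, ?_⟩
      rw [map_add, hw]
      simp [a]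
    have hφb : φ ((b : V)) = 0 := b.2
    have hφa : φ ((a : V)) = 0 := a.2
    have hyL : φ (v + (a : V)) = 1 := by simp [hv, hφa]
    have hyU : φ (v + (b : V)) = 1 := by simp [hv, hφb]
    refine ⟨extK φ v hv L₁ (v + (a : V)), extK φ v hv U₁ (v + (b : V)), ?_, ?_, ?_⟩
    · apply regU_extK φ v hv L₁ hL₁ _ hyL
      intro w hw
      apply ha
      refine ⟨w, Subtype.ext ?_⟩
      rw [hw]
      simp
    · apply regU_extK φ v hv U₁ hU₁ _ hyU
      intro w hw
      apply hb1
      refine ⟨w, Subtype.ext ?_⟩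
      rw [hw]
      simp
    · ext y
      rw [Module.End.mul_apply]
      have h1 : extK φ v hv U₁ (v + (b : V)) y
          = φ y • v + ((φ y • b + U₁ (projK φ v hv y) : LinearMap.ker φ) : V) := by
        rw [extK_apply]
        simp only [Submodule.coe_add, Submodule.coe_smul]
        module
      rw [h1, map_add, map_smul, extK_base, extK_mem, map_add, map_smul]
      have h2 : ((L₁ (U₁ (projK φ v hv y)) : LinearMap.ker φ) : V)
          = g ((projK φ v hv y : LinearMap.ker φ) : V) := by
        rw [← hg₁, hfac]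
        rfl
      simp only [Submodule.coe_add, Submodule.coe_smul]
      rw [h2]
      have h3 := sum_proj φ v hv y
      have h4 : g y = φ y • g v + g ((projK φ v hv y : LinearMap.ker φ) : V) := by
        conv_lhs => rw [h3]
        rw [map_add, map_smul]
      rw [h4]
      have h5 : (a : V) = (g v - v) - (L₁ b : V) := rfl
      rw [h5]
      module

end Cfsg.Agent.Lib.Linalg.Sourour
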